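import Cfsg.Statements.S5521
import Cfsg.Agent.M24.Six

set_option autoImplicit false
open Cfsg

namespace Cfsg.Agent.S5521

open CA.M24
set_option maxRecDepth 100000
set_option maxHeartbeats 400000



/-- The Mathieu group M₂₄ in its natural action on the 24 coordinate positions of the binary Golay code has minimal base size exactly 7: every set of at most 6 positions is fixed pointwise by some non-identity element of M₂₄, while some set of 7 positions is fixed pointwise only by the identity. -/
theorem result :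
    (∀ B : Finset Cfsg.GolayPt, B.card ≤ 6 → ∃ g ∈ Cfsg.M24, g ≠ 1 ∧ ∀ b ∈ B, g b = b) ∧
    (∃ B : Finset Cfsg.GolayPt, B.card = 7 ∧ ∀ g ∈ Cfsg.M24, (∀ b ∈ B, g b = b) → g = 1) := by
  refine ⟨fun B hB => ?_, {pt 23, pt 0, pt 1, pt 2, pt 3, pt 4, pt 5}, by decide +kernel,
    fun g hg h => ?_⟩
  · obtain ⟨E, hBE, -, hE⟩ := Finset.exists_subsuperset_card_eq (Finset.subset_univ B) hB
      (by rw [Finset.card_univ, card_Pt]; norm_num)
    have : 1 < Nat.card {g : Equiv.Perm Pt // g ∈ M24 ∧ ∀ p ∈ E, g p = p} := by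
      by_cases h : ∃ o ∈ octads, E ⊆ o
      · rw [card_pointwise_special hE h]; norm_num
      · rw [card_pointwise_umbral hE h]; norm_num
    have := Finite.one_lt_card_iff_nontrivial.1 this
    obtain ⟨g, hg⟩ := exists_ne (⟨1, one_mem _, fun _ _ => rfl⟩ :
      {g : Equiv.Perm Pt // g ∈ M24 ∧ ∀ p ∈ E, g p = p})
    exact ⟨g.1, g.2.1, fun e => hg (Subtype.ext e), fun b hb => g.2.2 b (hBE hb)⟩
  · apply eq_one_of_fix7 hg <;> exact h _ (by simp)

end Cfsg.Agent.S5521
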