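import Cfsg.Statements.S5523
import Cfsg.Agent.McL.F2
import Cfsg.Agent.McL.A9

set_option autoImplicit false
open Cfsg

namespace Cfsg.Agent.S5523

/-- A 3-local characterization of the McLaughlin group and its automorphism group with the centraliser condition imposed only at the centre of a Sylow 3-subgroup. Let G be a finite group, S a Sylow 3-subgroup, Z = Z(S), and J ≤ S elementary abelian of order 3^4. Write M₀ for the subgroup generated by the 3-elements of N_G(J), L₀ for the subgroup generated by the 3-elements of N_G(Z), and Q = O₃(N_G(Z)). Assume: (i) J ≤ M₀ and M₀/J is isomorphic to the alternating group of degree 6; (ii) Q is extraspecial of order 3^5 and exponent 3, Q ≤ L₀, and L₀/Q is isomorphic to SL(2,5); (iii) C_G(O₃(C_G(Z))) ≤ O₃(C_G(Z)). Then G is isomorphic to the McLaughlin group or to its full automorphism group. -/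
theorem result {G : Type*} [Group G] [Finite G]
    (S : Sylow 3 G) (Z : Subgroup G) (hZ : Z = (S : Subgroup G) ⊓ Subgroup.centralizer ((S : Subgroup G) : Set G))
    (J : Subgroup G) (hJS : J ≤ S) (hJcomm : IsMulCommutative J) (hJexp : ∀ a ∈ J, a ^ 3 = 1) (hJcard : Nat.card J = 3 ^ 4)
    (M₀ : Subgroup G) (hM₀ : M₀ = Subgroup.closure {g : G | g ∈ Subgroup.normalizer (J : Set G) ∧ ∃ k : ℕ, orderOf g = 3 ^ k})
    (hJM : J ≤ M₀) [hJn : (J.subgroupOf M₀).Normal] (eM : M₀ ⧸ J.subgroupOf M₀ ≃* alternatingGroup (Fin 6))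
    (L₀ : Subgroup G) (hL₀ : L₀ = Subgroup.closure {g : G | g ∈ Subgroup.normalizer (Z : Set G) ∧ ∃ k : ℕ, orderOf g = 3 ^ k})
    (Q : Subgroup G) (hQ : Q = (Cfsg.pCore 3 (Subgroup.normalizer (Z : Set G))).map (Subgroup.normalizer (Z : Set G)).subtype)
    (hQex : Cfsg.IsExtraspecial 3 Q) (hQcard : Nat.card Q = 3 ^ 5) (hQexp : ∀ a ∈ Q, a ^ 3 = 1)
    (hQL : Q ≤ L₀) [hQn : (Q.subgroupOf L₀).Normal] (eL : L₀ ⧸ Q.subgroupOf L₀ ≃* Matrix.SpecialLinearGroup (Fin 2) (ZMod 5))
    (hiii : Subgroup.centralizer (((Cfsg.pCore 3 (Subgroup.centralizer (Z : Set G))).map (Subgroup.centralizer (Z : Set G)).subtype : Subgroup G) : Set G)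
        ≤ (Cfsg.pCore 3 (Subgroup.centralizer (Z : Set G))).map (Subgroup.centralizer (Z : Set G)).subtype) :
    Nonempty (G ≃* Cfsg.Spor.McL) ∨ Nonempty (G ≃* MulAut Cfsg.Spor.McL) := by
  obtain ⟨h3, t, ht, -, hg, X, _, π, h⟩ := CA.McL.locA S Z hZ J hJS hJcomm hJexp hJcard M₀ hM₀ hJM eM L₀ hL₀ Q hQ
    hQex hQcard hQexp hQL eL hiii
  exact CA.McL.fin (fun ht h hg => CA.McL.jw ht h hg) ⟨h3, t, ht, X, _, π, hg, h⟩

end Cfsg.Agent.S5523
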