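import Cfsg.Statements.S5562
import Cfsg.Agent.Fi.Dihedral

set_option autoImplicit false
open Cfsg

namespace Cfsg.Agent.S5562

open CA.Fi CA.FG.Comp Subgroup

/-- Let G be a finite group, d an involution of G whose conjugates pairwise have products of odd order, and x any involution of G. Then the conjugacy class of d is the disjoint union, over the conjugates a of d commuting with x, of the sets of conjugates of d commuting with ax: every conjugate of d commutes with ax for exactly one conjugate a of d that commutes with x. -/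
theorem result {G : Type*} [Group G] [Finite G] (d : G) (hd : orderOf d = 2)
    (hodd : ∀ a ∈ conjugatesOf d, ∀ b ∈ conjugatesOf d, Odd (orderOf (a * b)))
    (x : G) (hx : orderOf x = 2) :
    ∀ e ∈ conjugatesOf d,
      ∃! a : G, a ∈ conjugatesOf d ∧ Commute a x ∧ Commute e (a * x) := by
  intro e he
  have sq : ∀ a ∈ conjugatesOf d, a * a = 1 := fun a ha =>
    mul_self_of_orderOf_two (orderOf_eq_of_isConj (show IsConj d a from ha) ▸ hd)
  have he2 := sq e he
  have hx2 := mul_self_of_orderOf_two hx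
  have hxe : x * e * x⁻¹ ∈ conjugatesOf d :=
    (show IsConj d e from he).trans (isConj_iff.2 ⟨x, rfl⟩)
  have hm := hodd e he _ hxe
  have e1 : e * (x * e * x⁻¹) = (e * x) ^ 2 := by rw [inv_eq_self_of_sq hx2, pow_two]; group
  rw [e1] at hm
  obtain ⟨j, hj⟩ := hm
  have hpow : (e * x) ^ (2 * j + 1) * (e * x) ^ (2 * j + 1) = 1 := by
    rw [← pow_add, ← two_mul, pow_mul, ← hj, pow_orderOf_eq_one]
  obtain ⟨c1, c2⟩ := dih_commute he2 hx2 hpow
  have hax : e * (e * x) ^ (2 * (j + 1)) * x = (e * x) ^ (2 * j + 1) := by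
    rw [show 2 * (j + 1) = (2 * j + 1) + 1 by ring, pow_succ, ← mul_assoc, c1.eq]
    simp only [mul_assoc]
    rw [hx2, mul_one, he2, mul_one]
  -- the involution `a x` is determined by `e x`
  have det : ∀ a : G, a ∈ conjugatesOf d → Commute a x → Commute e (a * x) →
      ∀ n : ℕ, Odd n → (e * a) ^ n = 1 → (e * x) ^ n = a * x := by
    intro a ha hc1 hc2 n hn hea
    have ha2 := sq a ha
    have hc3 : Commute a (a * x) := (Commute.refl a).mul_right hc1
    have e2 : e * x = (e * a) * (a * x) := by
      rw [mul_assoc, ← mul_assoc a, ha2, one_mul]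
    have ht : (a * x) ^ 2 = 1 := by rw [hc1.mul_pow, pow_two, pow_two, ha2, hx2, one_mul]
    obtain ⟨i, rfl⟩ := hn
    rw [e2, (hc2.mul_left hc3).mul_pow, hea, one_mul, pow_succ, pow_mul, ht, one_pow, one_mul]
  refine ⟨e * (e * x) ^ (2 * (j + 1)), ⟨?_, ?_, ?_⟩, ?_⟩
  · exact (show IsConj d e from he).trans (isConj_iff.2 ⟨_, dih_even he2 hx2 (j + 1)⟩)
  · have : e * (e * x) ^ (2 * (j + 1)) = (e * x) ^ (2 * j + 1) * x := by
      rw [← hax, mul_assoc, hx2, mul_one]
    rw [this]
    exact c2.symm.mul_left (Commute.refl x)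
  · rw [hax]; exact c1
  · rintro a ⟨ha, hc1, hc2⟩
    have hb : e * (e * x) ^ (2 * (j + 1)) ∈ conjugatesOf d :=
      (show IsConj d e from he).trans (isConj_iff.2 ⟨_, dih_even he2 hx2 (j + 1)⟩)
    have hb1 : Commute (e * (e * x) ^ (2 * (j + 1))) x := by
      have : e * (e * x) ^ (2 * (j + 1)) = (e * x) ^ (2 * j + 1) * x := by
        rw [← hax, mul_assoc, hx2, mul_one]
      rw [this]
      exact c2.symm.mul_left (Commute.refl x)
    have hb2 : Commute e (e * (e * x) ^ (2 * (j + 1)) * x) := by rw [hax]; exact c1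
    set b := e * (e * x) ^ (2 * (j + 1))
    have o1 := hodd e he a ha
    have o2 := hodd e he b hb
    have r1 := det a ha hc1 hc2 _ (o1.mul o2) (by rw [pow_mul, pow_orderOf_eq_one, one_pow])
    have r2 := det b hb hb1 hb2 _ (o1.mul o2) (by rw [mul_comm (orderOf _), pow_mul, pow_orderOf_eq_one, one_pow])
    exact mul_right_cancel (r1.symm.trans r2)

end Cfsg.Agent.S5562
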