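import Cfsg.Statements.S5596
import Cfsg.Agent.Fi.Singular

set_option autoImplicit false
open Cfsg

namespace Cfsg.Agent.S5596

open CA.Fi CA.FG.Comp Subgroup

/-- Setting: `z` is an involution of the finite group `G`; for each element `x`, `Q x` is the largest normal 2-subgroup of the centralizer of `x`; `Q z` is extraspecial and contains its own centralizer in `G`. A subgroup `U` is singular when it is elementary abelian, every non-identity element of `U` is conjugate to `z`, and any two non-identity elements `u`, `v` of `U` are orthogonal (`v ∈ Q u`). Write `QU` for the intersection of the `Q u` and `LU` for the join of the `Q u` over the non-identity `u` in `U`. If `U` is singular of order `2 ^ n` with `n ≥ 2`, then `U ≤ QU ≤ LU`, `LU` normalizes `U`, and `LU` induces on `U` its full automorphism group (the general linear group of dimension `n` over the field with two elements): every automorphism of `U` is conjugation by some element of `LU`. -/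
theorem result {G : Type*} [Group G] [Finite G]
    (Q : G → Subgroup G)
    (hQ : ∀ x : G, Q x = (Cfsg.pCore 2 ↥(Subgroup.centralizer ({x} : Set G))).map (Subgroup.centralizer ({x} : Set G)).subtype)
    (z : G) (hz : orderOf z = 2) (hE : Cfsg.IsExtraspecial 2 ↥(Q z))
    (hC : Subgroup.centralizer ((Q z : Subgroup G) : Set G) ≤ Q z)
    (U : Subgroup G) (hU2 : ∀ u ∈ U, u * u = 1)
    (hS : ∀ u ∈ U, u ≠ 1 → ∃ g : G, g * z * g⁻¹ = u)
    (hO : ∀ u ∈ U, ∀ v ∈ U, u ≠ 1 → v ≠ 1 → v ∈ Q u)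
    (QU LU : Subgroup G) (hQU : QU = ⨅ u ∈ ((U : Set G) \ {1}), Q u) (hLU : LU = ⨆ u ∈ ((U : Set G) \ {1}), Q u)
    (n : ℕ) (hn : 2 ≤ n) (hcard : Nat.card ↥U = 2 ^ n) :
    U ≤ QU ∧ QU ≤ LU ∧ LU ≤ Subgroup.normalizer (U : Set G) ∧
      ∀ φ : ↥U ≃* ↥U, ∃ g ∈ LU, ∀ u : ↥U, g * (u : G) * g⁻¹ = ((φ u : ↥U) : G) := by
  obtain rfl : Q = fun x => Op 2 (centralizer ({x} : Set G)) := funext hQ
  have h : Sing z U := ⟨LE_of_Op hz hE hC, hU2, hS, hO⟩
  have mQU : ∀ x, x ∈ QU ↔ ∀ u ∈ U, u ≠ 1 → x ∈ Op 2 (centralizer ({u} : Set G)) := fun x => by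
    simp only [hQU, mem_iInf, Set.mem_diff, SetLike.mem_coe, Set.mem_singleton_iff, and_imp]
  have lLU : ∀ u ∈ U, u ≠ 1 → Op 2 (centralizer ({u} : Set G)) ≤ LU := fun u hu h1 =>
    hLU ▸ le_iSup₂_of_le (f := fun u (_ : u ∈ (U : Set G) \ {1}) => Op 2 (centralizer ({u} : Set G))) u ⟨hu, h1⟩ le_rfl
  have LUle : ∀ S : Subgroup G, (∀ u ∈ U, u ≠ 1 → Op 2 (centralizer ({u} : Set G)) ≤ S) → LU ≤ S :=
    fun S hS => hLU ▸ iSup₂_le fun u hu => hS u hu.1 hu.2
  have hN : LU ≤ normalizer (U : Set G) := LUle _ fun u hu h1 => h.Q_le_norm hu h1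
  have hne : ∃ u ∈ U, u ≠ 1 := by
    by_contra! hall
    have : U = ⊥ := eq_bot_iff.2 hall
    rw [this, card_bot] at hcard
    exact absurd hcard.symm (Nat.one_lt_two_pow (by omega)).ne'
  obtain ⟨u0, hu0, hu01⟩ := hne
  refine ⟨fun v hv => (mQU v).2 fun u hu h1 => h.le_Q hu h1 hv, fun x hx => lLU u0 hu0 hu01 ((mQU x).1 hx u0 hu0 hu01),
    hN, fun φ => ?_⟩
  let F : G → Subgroup U := fun g =>
    { carrier := {u | g * (u : G) * g⁻¹ = φ u}
      one_mem' := by simp
      mul_mem' := fun {a b} ha hb => by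
        simp only [Set.mem_setOf_eq, map_mul, coe_mul] at ha hb ⊢
        rw [← ha, ← hb]; group
      inv_mem' := fun {a} ha => by
        simp only [Set.mem_setOf_eq, map_inv, coe_inv] at ha ⊢
        rw [← ha]; group }
  obtain ⟨_, ⟨g, hg, rfl⟩, hmax⟩ := Set.Finite.exists_maximal (Set.toFinite (F '' (LU : Set G)))
    ⟨_, 1, LU.one_mem, rfl⟩
  refine ⟨g, hg, fun x => ?_⟩
  by_contra hx
  have ha : g * (x : G) * g⁻¹ ∈ U := conj_mem_of_mem_normalizer (hN hg) x.2
  set a := g * (x : G) * g⁻¹ with hadef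
  set b : G := ((φ x : U) : G) with hbdef
  have hb : b ∈ U := (φ x).2
  have hu : a * b ∈ U := U.mul_mem ha hb
  have hu1 : a * b ≠ 1 := fun e => hx (by
    calc a = a * (b * b) := by rw [h.sq b hb, mul_one]
      _ = b := by rw [← mul_assoc, e, one_mul])
  let B : Subgroup G := ((F g).map φ.toMonoidHom).map U.subtype
  have hBU : B ≤ U := map_subtype_le _
  have hAU : B ⊔ zpowers (a * b) ≤ U := sup_le hBU ((zpowers_le).2 hu)
  have haA : a ∉ B ⊔ zpowers (a * b) := by
    intro hh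
    obtain ⟨_, ⟨_, ⟨f, hf, rfl⟩, rfl⟩, w, hw, e⟩ := mem_sup_of_le_normalizer' (H := B) (K := zpowers (a * b))
      (le_normalizer_iff.2 fun w hw y hy => by
        rw [conj_eq_iff_commute.2 (h.comm ((zpowers_le).2 hu hw) (hBU hy))]; exact hy) hh
    change (φ f : G) * w = a at e
    have hf' : g * (f : G) * g⁻¹ = φ f := hf
    rcases (mem_zpowers_iff_of_sq (h.sq _ hu)).1 hw with rfl | rfl
    · rw [mul_one, ← hf', hadef] at e
      have : f = x := Subtype.ext (by simpa using e)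
      subst this; exact hx hf'
    · have : (φ f : G) = b := by
        calc (φ f : G) = φ f * (a * b) * (a * b) := by rw [mul_assoc, h.sq _ hu, mul_one]
          _ = b := by rw [e, ← mul_assoc, h.sq a ha, one_mul]
      have : f = x := φ.injective (Subtype.ext this)
      subst this; exact hx hf'
  obtain ⟨k, hk, hk1, hk2⟩ := (h.le' hu hu1).exists_commute_not_commute (hAU.trans (h.le_Q hu hu1))
    (mem_sup_right (mem_zpowers _)) (h.le_Q hu hu1 ha) haA
  have e := (h.le' hu hu1).conj_eq hk (h.le_Q hu hu1 ha) hk2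
  have hle : F g ≤ F (k * g) := fun f hf => by
    have hf' : g * (f : G) * g⁻¹ = φ f := hf
    change k * g * (f : G) * (k * g)⁻¹ = φ f
    calc k * g * (f : G) * (k * g)⁻¹ = k * (g * f * g⁻¹) * k⁻¹ := by group
      _ = φ f := by rw [hf']; exact conj_eq_iff_commute.2 (hk1 _ (mem_sup_left ⟨_, ⟨f, hf, rfl⟩, rfl⟩))
  refine hx (hmax ⟨k * g, LU.mul_mem (lLU _ hu hu1 hk) hg, rfl⟩ hle (?_ : x ∈ F (k * g)))
  change k * g * (x : G) * (k * g)⁻¹ = b
  calc k * g * (x : G) * (k * g)⁻¹ = k * a * k⁻¹ := by rw [hadef]; group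
    _ = b := by rw [e, ← mul_assoc, h.sq a ha, one_mul]

end Cfsg.Agent.S5596
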