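import Cfsg.Statements.S5597
import Cfsg.Agent.Fi.Singular

set_option autoImplicit false
open Cfsg

namespace Cfsg.Agent.S5597

open CA.Fi CA.FG.Comp Subgroup

/-- Setting: `z` is an involution of the finite group `G`; for each element `x`, `Q x` is the largest normal 2-subgroup of the centralizer of `x`; `Q z` is extraspecial and contains its own centralizer in `G`. A subgroup `U` is singular when it is elementary abelian, every non-identity element of `U` is conjugate to `z`, and any two non-identity elements `u`, `v` of `U` are orthogonal (`v ∈ Q u`). Write `QU` for the intersection of the `Q u` and `LU` for the join of the `Q u` over the non-identity `u` in `U`. If `U` is a non-trivial singular subgroup, then `LU` acts trivially on `QU / U` (every commutator of an element of `LU` with an element of `QU` lies in `U`), and for every `x` in `QU` outside `U` the centralizer of `U` in `LU` permutes the coset `x U` transitively: each `x u` with `u ∈ U` is a conjugate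 of `x` by an element of `LU` centralizing `U`. -/
theorem result {G : Type*} [Group G] [Finite G]
    (Q : G → Subgroup G)
    (hQ : ∀ x : G, Q x = (Cfsg.pCore 2 ↥(Subgroup.centralizer ({x} : Set G))).map (Subgroup.centralizer ({x} : Set G)).subtype)
    (z : G) (hz : orderOf z = 2) (hE : Cfsg.IsExtraspecial 2 ↥(Q z))
    (hC : Subgroup.centralizer ((Q z : Subgroup G) : Set G) ≤ Q z)
    (U : Subgroup G) (hU2 : ∀ u ∈ U, u * u = 1)
    (hS : ∀ u ∈ U, u ≠ 1 → ∃ g : G, g * z * g⁻¹ = u)
    (hO : ∀ u ∈ U, ∀ v ∈ U, u ≠ 1 → v ≠ 1 → v ∈ Q u)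
    (QU LU : Subgroup G) (hQU : QU = ⨅ u ∈ ((U : Set G) \ {1}), Q u) (hLU : LU = ⨆ u ∈ ((U : Set G) \ {1}), Q u)
    (hU : U ≠ ⊥) :
    (∀ g ∈ LU, ∀ x ∈ QU, g * x * g⁻¹ * x⁻¹ ∈ U) ∧
      ∀ x ∈ QU, x ∉ U → ∀ u ∈ U, ∃ g ∈ LU ⊓ Subgroup.centralizer (U : Set G), g * x * g⁻¹ = x * u := by
  obtain rfl : Q = fun x => Op 2 (centralizer ({x} : Set G)) := funext hQ
  have h : Sing z U := ⟨LE_of_Op hz hE hC, hU2, hS, hO⟩
  have mQU : ∀ x, x ∈ QU ↔ ∀ u ∈ U, u ≠ 1 → x ∈ Op 2 (centralizer ({u} : Set G)) := fun x => by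
    simp only [hQU, mem_iInf, Set.mem_diff, SetLike.mem_coe, Set.mem_singleton_iff, and_imp]
  have lLU : ∀ u ∈ U, u ≠ 1 → Op 2 (centralizer ({u} : Set G)) ≤ LU := fun u hu h1 =>
    hLU ▸ le_iSup₂_of_le (f := fun u (_ : u ∈ (U : Set G) \ {1}) => Op 2 (centralizer ({u} : Set G))) u ⟨hu, h1⟩ le_rfl
  have LUle : ∀ S : Subgroup G, (∀ u ∈ U, u ≠ 1 → Op 2 (centralizer ({u} : Set G)) ≤ S) → LU ≤ S :=
    fun S hS => hLU ▸ iSup₂_le fun u hu => hS u hu.1 hu.2
  have hN : LU ≤ normalizer (U : Set G) := LUle _ fun u hu h1 => h.Q_le_norm hu h1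
  constructor
  · intro g hg x hx
    let S : Subgroup G :=
      { carrier := {g | g ∈ LU ∧ g * x * g⁻¹ * x⁻¹ ∈ U}
        one_mem' := ⟨one_mem _, by simp⟩
        mul_mem' := fun {a b} ha hb => ⟨mul_mem ha.1 hb.1, by
          have := mul_mem (conj_mem_of_mem_normalizer (hN ha.1) hb.2) ha.2
          convert this using 1; group⟩
        inv_mem' := fun {a} ha => ⟨inv_mem ha.1, by
          have := conj_inv_mem_of_mem_normalizer (hN ha.1) (inv_mem ha.2)
          convert this using 1; group⟩ }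
    refine (LUle S (fun u hu h1 q hq => ⟨lLU u hu h1 hq, ?_⟩) hg).2
    exact (zpowers_le).2 hu ((h.le' hu h1).commutator_mem hq ((mQU x).1 hx u hu h1))
  · intro x hx hxU u hu
    by_cases h1 : u = 1
    · exact ⟨1, one_mem _, by simp [h1]⟩
    obtain ⟨k, hk, hk1, hk2⟩ := (h.le' hu h1).exists_commute_not_commute (h.le_Q hu h1) hu
      ((mQU x).1 hx u hu h1) hxU
    exact ⟨k, ⟨lLU u hu h1 hk, mem_cent_subgroup_iff.2 hk1⟩, (h.le' hu h1).conj_eq hk ((mQU x).1 hx u hu h1) hk2⟩

end Cfsg.Agent.S5597
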