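import Cfsg.Statements.S5598
import Cfsg.Agent.Fi.Singular

set_option autoImplicit false
open Cfsg

namespace Cfsg.Agent.S5598

open CA.Fi CA.FG.Comp Subgroup

/-- Setting: `z` is an involution of the finite group `G`; for each element `x`, `Q x` is the largest normal 2-subgroup of the centralizer of `x`; `Q z` is extraspecial and contains its own centralizer in `G`. A subgroup `U` is singular when it is elementary abelian, every non-identity element of `U` is conjugate to `z`, and any two non-identity elements `u`, `v` of `U` are orthogonal (`v ∈ Q u`). Write `QU` for the intersection of the `Q u` and `LU` for the join of the `Q u` over the non-identity `u` in `U`. If the singular subgroup `U` is generated by a set `T` of non-identity elements, then `QU` is already the intersection of the `Q t` over `t ∈ T`. -/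
theorem result {G : Type*} [Group G] [Finite G]
    (Q : G → Subgroup G)
    (hQ : ∀ x : G, Q x = (Cfsg.pCore 2 ↥(Subgroup.centralizer ({x} : Set G))).map (Subgroup.centralizer ({x} : Set G)).subtype)
    (z : G) (hz : orderOf z = 2) (hE : Cfsg.IsExtraspecial 2 ↥(Q z))
    (hC : Subgroup.centralizer ((Q z : Subgroup G) : Set G) ≤ Q z)
    (U : Subgroup G) (hU2 : ∀ u ∈ U, u * u = 1)
    (hS : ∀ u ∈ U, u ≠ 1 → ∃ g : G, g * z * g⁻¹ = u)
    (hO : ∀ u ∈ U, ∀ v ∈ U, u ≠ 1 → v ≠ 1 → v ∈ Q u)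
    (QU LU : Subgroup G) (hQU : QU = ⨅ u ∈ ((U : Set G) \ {1}), Q u) (hLU : LU = ⨆ u ∈ ((U : Set G) \ {1}), Q u)
    (T : Set G) (hT : Subgroup.closure T = U) (hT1 : (1 : G) ∉ T) :
    QU = ⨅ t ∈ T, Q t := by
  obtain rfl : Q = fun x => Op 2 (centralizer ({x} : Set G)) := funext hQ
  have h : Sing z U := ⟨LE_of_Op hz hE hC, hU2, hS, hO⟩
  have mQU : ∀ x, x ∈ QU ↔ ∀ u ∈ U, u ≠ 1 → x ∈ Op 2 (centralizer ({u} : Set G)) := fun x => by
    simp only [hQU, mem_iInf, Set.mem_diff, SetLike.mem_coe, Set.mem_singleton_iff, and_imp]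
  have lLU : ∀ u ∈ U, u ≠ 1 → Op 2 (centralizer ({u} : Set G)) ≤ LU := fun u hu h1 =>
    hLU ▸ le_iSup₂_of_le (f := fun u (_ : u ∈ (U : Set G) \ {1}) => Op 2 (centralizer ({u} : Set G))) u ⟨hu, h1⟩ le_rfl
  have LUle : ∀ S : Subgroup G, (∀ u ∈ U, u ≠ 1 → Op 2 (centralizer ({u} : Set G)) ≤ S) → LU ≤ S :=
    fun S hS => hLU ▸ iSup₂_le fun u hu => hS u hu.1 hu.2
  have hN : LU ≤ normalizer (U : Set G) := LUle _ fun u hu h1 => h.Q_le_norm hu h1
  have hTU : ∀ t ∈ T, t ∈ U := fun t ht => hT ▸ subset_closure ht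
  ext x
  rw [mQU]
  simp only [mem_iInf]
  refine ⟨fun hx t ht => hx t (hTU t ht) fun e => hT1 (e ▸ ht), fun hx u hu => ?_⟩
  let S : Subgroup G :=
    { carrier := {u | u ∈ U ∧ (u ≠ 1 → x ∈ Op 2 (centralizer ({u} : Set G)))}
      one_mem' := ⟨one_mem _, fun e => absurd rfl e⟩
      mul_mem' := fun {a b} ha hb => ⟨mul_mem ha.1 hb.1, fun h3 => by
        by_cases h1 : a = 1
        · rw [h1, one_mul] at h3 ⊢; exact hb.2 h3
        by_cases h2 : b = 1
        · rw [h2, mul_one]; exact ha.2 h1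
        exact h.mem_mul ha.1 hb.1 h1 h2 h3 (ha.2 h1) (hb.2 h2)⟩
      inv_mem' := fun {a} ha => by rw [inv_eq_self_of_sq (h.sq a ha.1)]; exact ha }
  have : closure T ≤ S := (closure_le _).2 fun t ht => ⟨hTU t ht, fun _ => hx t ht⟩
  exact (this (hT ▸ hu)).2

end Cfsg.Agent.S5598
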